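import Cfsg.Agent.H357.T6.Asm

/-!
# Two isolated tori (helper357)

`T`, `S` : commutative, containing the centralizers of their nonidentity elements, of coprime orders `n₁`, `n₂`, with
`|N(T) : T| = w`, `|N(S) : S| = v`.

* `exists_cd` : if `χ(x) χ(y) ≠ 0` for some `x ∈ T`, `y ∈ S`, `x, y ≠ 1`, then `χ` is constant on `T - 1` and on `S - 1`;
* `asm_two` : in a group of Lie type in characteristic `p`, from the list of the possible degrees and a bound for `|C(g)|`: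
  `g ∈ x^G y^G` for all `g ≠ 1`.
-/

set_option autoImplicit false
set_option linter.unusedSectionVars false

open Cfsg Subgroup
open scoped ComplexConjugate

namespace Cfsg.Agent.H357.T6.Asm

open Cfsg.Agent.Characters Cfsg.Agent.Characters.Core Cfsg.Agent.H65.Ore
open Cfsg.Agent.H653.Sieve

universe u

variable {G : Type u} [Group G] [Finite G] [Fintype (IrrCharacter G)]

theorem not_isConj_cop {T S : Subgroup G} {n₁ n₂ : ℕ} (hT : Nat.card T = n₁) (hS : Nat.card S = n₂)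
    (hn : n₁.Coprime n₂) {a b : G} (ha : a ∈ T) (hb : b ∈ S) (hb1 : b ≠ 1) (x : G) : b ≠ x * a * x⁻¹ := by
  rintro rfl
  have h3 : orderOf (x * a * x⁻¹) = orderOf a := by
    have := orderOf_injective (MulAut.conj x).toMonoidHom (MulAut.conj x).injective a
    simpa using this
  have h1 : orderOf a ∣ n₁ := hT ▸ Subgroup.orderOf_dvd_natCard T ha
  have h2 : orderOf (x * a * x⁻¹) ∣ n₂ := hS ▸ Subgroup.orderOf_dvd_natCard S hb
  rw [h3] at h2
  have h4 := Nat.eq_one_of_dvd_coprimes hn h1 h2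
  rw [← h3] at h4
  exact hb1 (orderOf_eq_one_iff.1 h4)

/-- a character nonconstant on `T - 1` vanishes on `S - 1` or is nonconstant there -/
theorem zero_of_nonconst {T S : Subgroup G} {n₁ n₂ w v : ℕ}
    (hab : ∀ a ∈ T, ∀ b ∈ T, a * b = b * a) (hc : ∀ a ∈ T, a ≠ 1 → Subgroup.centralizer ({a} : Set G) ≤ T)
    (hw : T.relIndex (normalizer (T : Set G)) = w) (hT : Nat.card T = n₁) (hk : w * (w + 2) + 1 < n₁)
    (hab' : ∀ a ∈ S, ∀ b ∈ S, a * b = b * a) (hc' : ∀ a ∈ S, a ≠ 1 → Subgroup.centralizer ({a} : Set G) ≤ S)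
    (hw' : S.relIndex (normalizer (S : Set G)) = v) (hS : Nat.card S = n₂) (hk' : v * (v + 2) + 1 < n₂)
    (hn : n₁.Coprime n₂) (hwv : w * v + 1 < n₁) {χ : IrrCharacter G}
    (hχ : ¬ ∃ z : ℂ, ∀ a ∈ T, a ≠ 1 → (χ : G → ℂ) a = z) : ∀ b ∈ S, b ≠ 1 → (χ : G → ℂ) b = 0 := by
  classical
  rw [← hT] at hk
  rw [← hS] at hk'
  obtain ⟨c, h1, h2, h3, n, M, hinj, hn3, hn1, hM, hMM⟩ := H221.TC.sum_sq hab hc hw hk
  obtain ⟨d, g1, g2, g3, m, N, ginj, gn3, gn1, gN, gNN⟩ := H221.TC.sum_sq hab' hc' hw' hk'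
  rw [hT] at hk hn1
  rw [hS] at hk' gn1
  have hoff : ∀ b ∈ S, b ≠ 1 → ∀ x : G, ∀ a ∈ T, a ≠ 1 → b ≠ x * a * x⁻¹ := fun b hb hb1 x a ha _ =>
    not_isConj_cop hT hS hn ha hb hb1 x
  obtain ⟨i, rfl⟩ := (hM χ).1 hχ
  -- `M i` is constant on `S - 1`
  have hcon : ∃ z : ℂ, ∀ b ∈ S, b ≠ 1 → (M i : G → ℂ) b = z := by
    by_contra hcon
    obtain ⟨j, hj⟩ := (gN (M i)).1 hcon
    obtain ⟨k, hk1⟩ : ∃ k : Fin n, k ≠ i := by
      have : Nontrivial (Fin n) := Fin.nontrivial_iff_two_le.2 (by omega)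
      exact exists_ne i
    have h4 : ¬ ∃ z : ℂ, ∀ b ∈ S, b ≠ 1 → (M k : G → ℂ) b = z := by
      rintro ⟨z, hz⟩
      exact hcon ⟨z, fun b hb hb1 => by rw [hMM i k b (hoff b hb hb1)]; exact hz b hb hb1⟩
    obtain ⟨l, hl⟩ := (gN (M k)).1 h4
    apply hk1
    apply hinj
    apply Subtype.ext
    funext g
    by_cases hg : ∀ x : G, ∀ a ∈ T, a ≠ 1 → g ≠ x * a * x⁻¹
    · exact hMM k i g hg
    · push Not at hg
      obtain ⟨x, a, ha, ha1, hga⟩ := hg
      have h5 : ∀ y : G, ∀ b ∈ S, b ≠ 1 → g ≠ y * b * y⁻¹ := by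
        intro y b hb hb1 hgb
        apply not_isConj_cop hT hS hn ha hb hb1 (y⁻¹ * x)
        rw [hga] at hgb
        have h6 : b = y⁻¹ * (x * a * x⁻¹) * y := by rw [hgb]; group
        rw [h6]; group
      have h6 := gNN l j g h5
      rw [← hl, ← hj] at h6
      exact h6
  obtain ⟨z, hz⟩ := hcon
  by_cases hd : d (M i) = 0
  · intro b hb hb1
    have := g1 (M i) ⟨z, hz⟩ b hb hb1
    rw [this, hd]
    simp
  · exfalso
    have h4 : (Finset.univ.image M).card ≤ v := by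
      refine H221.TC.card_le hab' hc' hw' (by rw [hS]; exact hk') _ fun ψ hψ => ?_
      obtain ⟨k, -, rfl⟩ := Finset.mem_image.1 hψ
      refine ⟨d (M i), hd, fun b hb hb1 => ?_⟩
      rw [hMM k i b (hoff b hb hb1)]
      exact g1 (M i) ⟨z, hz⟩ b hb hb1
    rw [Finset.card_image_of_injective _ hinj, Finset.card_univ, Fintype.card_fin] at h4
    have h5 : n * w ≤ v * w := Nat.mul_le_mul_right _ h4
    have h6 : v * w = w * v := mul_comm _ _
    omega

/-- **The values of a character at two isolated tori.** -/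
theorem exists_cd {T S : Subgroup G} {n₁ n₂ w v : ℕ}
    (hab : ∀ a ∈ T, ∀ b ∈ T, a * b = b * a) (hc : ∀ a ∈ T, a ≠ 1 → Subgroup.centralizer ({a} : Set G) ≤ T)
    (hw : T.relIndex (normalizer (T : Set G)) = w) (hT : Nat.card T = n₁) (hk : w * (w + 2) + 1 < n₁)
    (hab' : ∀ a ∈ S, ∀ b ∈ S, a * b = b * a) (hc' : ∀ a ∈ S, a ≠ 1 → Subgroup.centralizer ({a} : Set G) ≤ S)
    (hw' : S.relIndex (normalizer (S : Set G)) = v) (hS : Nat.card S = n₂) (hk' : v * (v + 2) + 1 < n₂)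
    (hn : n₁.Coprime n₂) (hwv : w * v + 1 < n₁) (hwv' : w * v + 1 < n₂) :
    ∃ c d : IrrCharacter G → ℤ,
      (∀ χ : IrrCharacter G, c χ ≠ 0 → ∀ a ∈ T, a ≠ 1 → (χ : G → ℂ) a = c χ) ∧
      (∀ χ : IrrCharacter G, d χ ≠ 0 → ∀ a ∈ S, a ≠ 1 → (χ : G → ℂ) a = d χ) ∧
      ∑ χ : IrrCharacter G, c χ ^ 2 = w ∧ ∑ χ : IrrCharacter G, d χ ^ 2 = v ∧
      ∀ χ : IrrCharacter G, ∀ x ∈ T, x ≠ 1 → ∀ y ∈ S, y ≠ 1 → (χ : G → ℂ) x ≠ 0 → (χ : G → ℂ) y ≠ 0 →
        (χ : G → ℂ) x = c χ ∧ (χ : G → ℂ) y = d χ := by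
  have hwv2 : v * w + 1 < n₂ := by rw [mul_comm]; exact hwv'
  have hz := fun χ : IrrCharacter G => zero_of_nonconst (χ := χ) hab hc hw hT hk hab' hc' hw' hS hk' hn hwv
  have hz' := fun χ : IrrCharacter G => zero_of_nonconst (χ := χ) hab' hc' hw' hS hk' hab hc hw hT hk hn.symm hwv2
  rw [← hT] at hk
  rw [← hS] at hk'
  obtain ⟨c, h1, h2, h3, -⟩ := H221.TC.sum_sq hab hc hw hk
  obtain ⟨d, g1, g2, g3, -⟩ := H221.TC.sum_sq hab' hc' hw' hk'
  refine ⟨c, d, fun χ hχ => ?_, fun χ hχ => ?_, h3, g3, fun χ x hx hx1 y hy hy1 h4 h5 => ⟨?_, ?_⟩⟩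
  · by_cases hcon : ∃ z : ℂ, ∀ t ∈ T, t ≠ 1 → (χ : G → ℂ) t = z
    · exact h1 χ hcon
    · exact absurd (h2 χ hcon) hχ
  · by_cases hcon : ∃ z : ℂ, ∀ t ∈ S, t ≠ 1 → (χ : G → ℂ) t = z
    · exact g1 χ hcon
    · exact absurd (g2 χ hcon) hχ
  · by_cases hcon : ∃ z : ℂ, ∀ t ∈ T, t ≠ 1 → (χ : G → ℂ) t = z
    · exact h1 χ hcon x hx hx1
    · exact absurd (hz χ hcon y hy hy1) h5
  · by_cases hcon : ∃ z : ℂ, ∀ t ∈ S, t ≠ 1 → (χ : G → ℂ) t = z
    · exact g1 χ hcon y hy hy1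
    · exact absurd (hz' χ hcon x hx hx1) h4

/-- `n ≤ w - 2` middle characters from the sum of the squares of the constant values -/
theorem ncard_le_sub {p : ℕ} {c W : IrrCharacter G → ℤ} {st : IrrCharacter G} {w n : ℕ} (hwn : n + 2 = w)
    (hst : ¬ p ∣ Nat.card G / charDegree (st : G → ℂ)) (hst1 : st ≠ one1 G) (h1 : c (one1 G) ≠ 0) (h2 : c st ≠ 0)
    (h12 : ∑ χ : IrrCharacter G, c χ ^ 2 = w) : {χ : IrrCharacter G | IsMidC p c W χ}.ncard ≤ n := by
  classical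
  have h3 : {χ : IrrCharacter G | IsMidC p c W χ}.ncard = (Finset.univ.filter (IsMidC p c W)).card := by
    rw [Set.ncard_eq_toFinset_card']
    congr 1
    ext χ
    simp
  rw [h3]
  set S := Finset.univ.filter (IsMidC p c W) with hS
  have h4 : st ∉ S := fun h => hst (Finset.mem_filter.1 h).2.2.1
  have h5 : one1 G ∉ insert st S := by
    rw [Finset.mem_insert]
    rintro (h | h)
    · exact hst1 h.symm
    · exact (Finset.mem_filter.1 h).2.1 rfl
  have h6 : ((insert (one1 G) (insert st S)).card : ℤ) ≤ w := by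
    rw [← h12, Finset.card_eq_sum_ones]
    push_cast
    calc ∑ χ ∈ insert (one1 G) (insert st S), (1 : ℤ) ≤ ∑ χ ∈ insert (one1 G) (insert st S), c χ ^ 2 := by
          refine Finset.sum_le_sum fun χ hχ => ?_
          have h7 : c χ ≠ 0 := by
            rw [Finset.mem_insert, Finset.mem_insert] at hχ
            rcases hχ with rfl | rfl | hχ
            · exact h1
            · exact h2
            · exact (Finset.mem_filter.1 hχ).2.2.2.1
          have : 0 < c χ ^ 2 := by positivity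
          omega
      _ ≤ ∑ χ : IrrCharacter G, c χ ^ 2 :=
          Finset.sum_le_sum_of_subset_of_nonneg (Finset.subset_univ _) fun _ _ _ => sq_nonneg _
  rw [Finset.card_insert_of_notMem h5, Finset.card_insert_of_notMem h4] at h6
  push_cast at h6
  omega

theorem ncard_swap {p : ℕ} {c W : IrrCharacter G → ℤ} :
    {χ : IrrCharacter G | IsMidC p c W χ}.ncard = {χ : IrrCharacter G | IsMidC p W c χ}.ncard := by
  congr 1
  ext χ
  simp only [Set.mem_ofPred_eq, IsMidC]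
  tauto

/-- **The assembly for two isolated tori.** -/
theorem asm_two {p : ℕ} (hp : p.Prime) (hG : IsLieTypeChar p G) {T S : Subgroup G} {n₁ n₂ w v n D : ℕ}
    (hab : ∀ a ∈ T, ∀ b ∈ T, a * b = b * a) (hc : ∀ a ∈ T, a ≠ 1 → Subgroup.centralizer ({a} : Set G) ≤ T)
    (hw : T.relIndex (normalizer (T : Set G)) = w) (hT : Nat.card T = n₁) (hk : w * (w + 2) + 1 < n₁)
    (hpT : ¬ p ∣ n₁)
    (hone : ∀ (χ : IrrCharacter G) (c : ℤ), (∀ a ∈ T, a ≠ 1 → (χ : G → ℂ) a = c) → -1 ≤ c ∧ c ≤ 1)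
    (hab' : ∀ a ∈ S, ∀ b ∈ S, a * b = b * a) (hc' : ∀ a ∈ S, a ≠ 1 → Subgroup.centralizer ({a} : Set G) ≤ S)
    (hw' : S.relIndex (normalizer (S : Set G)) = v) (hS : Nat.card S = n₂) (hk' : v * (v + 2) + 1 < n₂)
    (hpS : ¬ p ∣ n₂)
    (hone' : ∀ (χ : IrrCharacter G) (c : ℤ), (∀ a ∈ S, a ≠ 1 → (χ : G → ℂ) a = c) → -1 ≤ c ∧ c ≤ 1)
    (hn : n₁.Coprime n₂) (hwv : w * v + 1 < n₁) (hwv' : w * v + 1 < n₂)
    (hdeg : ∀ d : ℕ, d ∣ Nat.card G → ∀ a b : ℤ, (a = 1 ∨ a = -1) → (b = 1 ∨ b = -1) → (n₁ : ℤ) ∣ (d : ℤ) - a →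
      (n₂ : ℤ) ∣ (d : ℤ) - b → d < D → d = 1 ∨ ∃ k < (Nat.card G).factorization p, d = p ^ k)
    (hcount : n + 2 = w ∨ n + 2 = v ∨ (n = 2 ∧ ∀ d : ℕ, d ∣ Nat.card G → d * d < Nat.card G →
      ∀ a b : ℤ, (a = 1 ∨ a = -1) → (b = 1 ∨ b = -1) → (n₁ : ℤ) ∣ (d : ℤ) - a → (n₂ : ℤ) ∣ (d : ℤ) - b →
      d = 1 ∨ a * b = -1 ∨ p ^ (Nat.card G).factorization p ∣ d))
    (hcb : ∀ g : G, p ∣ orderOf g → p ∣ (centralizer ({g} : Set G)).index →
      n * Nat.card (centralizer ({g} : Set G)) < D ^ 2 + n)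
    {x y : G} (hx : x ∈ T) (hx1 : x ≠ 1) (hy : y ∈ S) (hy1 : y ≠ 1) (g : G) (hg : g ≠ 1) : Prd x y g := by
  classical
  have : Fact p.Prime := ⟨hp⟩
  have hsimple : IsSimpleGroup G := H400.LieSimple.isSimple_of_lie hG
  obtain ⟨c, d, hcc, hdd, hc12, hd8, hcd⟩ := exists_cd hab hc hw hT hk hab' hc' hw' hS hk' hn hwv hwv'
  have hTc : ∀ a ∈ T, a ≠ 1 → ¬ p ∣ Nat.card (centralizer ({a} : Set G)) := by
    intro a ha ha1 h
    exact hpT (hT ▸ h.trans (Subgroup.card_dvd_of_le (hc a ha ha1)))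
  have hSc : ∀ a ∈ S, a ≠ 1 → ¬ p ∣ Nat.card (centralizer ({a} : Set G)) := by
    intro a ha ha1 h
    exact hpS (hS ▸ h.trans (Subgroup.card_dvd_of_le (hc' a ha ha1)))
  have hxc := hTc x hx hx1
  have hyc := hSc y hy hy1
  have hxy : ¬ IsConj x y⁻¹ := by
    intro hcon
    obtain ⟨b, hb⟩ := isConj_iff.1 hcon
    exact not_isConj_cop hT hS hn hx (S.inv_mem hy) (inv_ne_one.2 hy1) b hb.symm
  -- the trivial character
  have hc1 : c (one1 G) = 1 := by
    have h1 := (hcd (one1 G) x hx hx1 y hy hy1 (by rw [one1_apply]; exact one_ne_zero)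
      (by rw [one1_apply]; exact one_ne_zero)).1
    rw [one1_apply] at h1
    exact_mod_cast h1.symm
  have hd1 : d (one1 G) = 1 := by
    have h1 := (hcd (one1 G) x hx hx1 y hy hy1 (by rw [one1_apply]; exact one_ne_zero)
      (by rw [one1_apply]; exact one_ne_zero)).2
    rw [one1_apply] at h1
    exact_mod_cast h1.symm
  -- the Steinberg character
  obtain ⟨st, hstd, hstv, -, huniq, -⟩ := H727.TC.exists_st hp hG
  have hstp : ¬ p ∣ Nat.card G / charDegree (st : G → ℂ) := by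
    rw [H143.ChevBlocks.not_dvd_iff st.2, hstd, hp.factorization_pow]
    simp
  have hpG : p ∣ Nat.card G :=
    H330.Gow.dvd_card (H330.Gow.hasSplit_of_ab (H716.SplitAb.hasSplitAb_of_lie hp hG))
  have hst1 : st ≠ one1 G := by
    rintro h
    rw [h] at hstp
    apply hstp
    have h1 : charDegree ((one1 G : IrrCharacter G) : G → ℂ) = 1 := by
      unfold charDegree
      rw [one1_apply]
      simp
    rw [h1, Nat.div_one]
    exact hpG
  have hst0 : ∀ a : G, ¬ p ∣ Nat.card (centralizer ({a} : Set G)) → (st : G → ℂ) a ≠ 0 := by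
    intro a ha h0
    have h2 := hstv a (H727.TC.reg_of_cent ha)
    rw [Nat.factorization_eq_zero_of_not_dvd ha, pow_zero, h0] at h2
    rcases h2 with h2 | h2 <;> norm_num at h2
  have hstcd := hcd st x hx hx1 y hy hy1 (hst0 x hxc) (hst0 y hyc)
  have hstc : c st ≠ 0 := by
    intro h0
    apply hst0 x hxc
    rw [hstcd.1, h0]; simp
  have hstW : d st ≠ 0 := by
    intro h0
    apply hst0 y hyc
    rw [hstcd.2, h0]; simp
  have hc3 : ∀ χ : IrrCharacter G, c χ ≠ 0 → c χ = 1 ∨ c χ = -1 := by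
    intro χ hχ
    obtain ⟨h1, h2⟩ := hone χ (c χ) (hcc χ hχ)
    omega
  have hd3 : ∀ χ : IrrCharacter G, d χ ≠ 0 → d χ = 1 ∨ d χ = -1 := by
    intro χ hχ
    obtain ⟨h1, h2⟩ := hone' χ (d χ) (hdd χ hχ)
    omega
  have hcong : ∀ χ : IrrCharacter G, c χ ≠ 0 → d χ ≠ 0 →
      (n₁ : ℤ) ∣ (charDegree (χ : G → ℂ) : ℤ) - c χ ∧ (n₂ : ℤ) ∣ (charDegree (χ : G → ℂ) : ℤ) - d χ := by
    intro χ h1 h2
    constructor
    · have h4 := H221.TC.deg_mod (A := T) (isIrr_isCharacter χ.2) (c := c χ) (d := (charDegree (χ : G → ℂ) : ℤ))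
        (hcc χ h1) (by rw [← H686.CharKit.charDegree_irr χ]; simp)
      rwa [hT] at h4
    · have h4 := H221.TC.deg_mod (A := S) (isIrr_isCharacter χ.2) (c := d χ) (d := (charDegree (χ : G → ℂ) : ℤ))
        (hdd χ h2) (by rw [← H686.CharKit.charDegree_irr χ]; simp)
      rwa [hS] at h4
  have hone1 : ∀ χ : IrrCharacter G, χ ≠ one1 G → charDegree (χ : G → ℂ) ≠ 1 := by
    intro χ hχ h
    have hcomm : ¬ (Nat.card G).Prime := by
      intro hpr
      have h1 : p = Nat.card G := (Nat.prime_dvd_prime_iff_eq hp hpr).1 hpG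
      have h2 : n₁ ∣ Nat.card G := hT ▸ Subgroup.card_subgroup_dvd_card T
      rcases (Nat.dvd_prime hpr).1 h2 with h3 | h3
      · omega
      · exact hpT (by rw [h3, ← h1])
    exact hχ (Subtype.ext (one_of_deg hcomm χ h))
  -- the middle characters
  have hmid : ∀ χ : IrrCharacter G, H727.TC.IsMidB p x y χ → IsMidC p c d χ ∧ (χ : G → ℂ) x = c χ ∧
      (χ : G → ℂ) y = d χ := by
    rintro χ ⟨h1, h2, h3, h4⟩
    obtain ⟨h5, h6⟩ := hcd χ x hx hx1 y hy hy1 h3 h4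
    refine ⟨⟨h1, h2, ?_, ?_⟩, h5, h6⟩
    · intro h0; exact h3 (by rw [h5, h0]; simp)
    · intro h0; exact h4 (by rw [h6, h0]; simp)
  have hncard : {χ : IrrCharacter G | H727.TC.IsMidB p x y χ}.ncard ≤ n := by
    refine le_trans (Set.ncard_le_ncard (t := {χ : IrrCharacter G | IsMidC p c d χ}) (fun χ hχ => (hmid χ hχ).1)
      (Set.toFinite _)) ?_
    rcases hcount with h | h | ⟨rfl, hneg⟩
    · exact ncard_le_sub h hstp hst1 (by rw [hc1]; norm_num) hstc hc12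
    · rw [ncard_swap]
      exact ncard_le_sub h hstp hst1 (by rw [hd1]; norm_num) hstW hd8
    · have hsum : ∑ χ : IrrCharacter G, c χ * d χ = 0 := by
        have : Fintype G := Fintype.ofFinite G
        have h1 := S0145.sum_irr_mul_conj x y⁻¹
        rw [if_neg hxy] at h1
        have h2 : ∀ χ : IrrCharacter G, (χ : G → ℂ) x * conj ((χ : G → ℂ) y⁻¹) = ((c χ * d χ : ℤ) : ℂ) := by
          intro χ
          rw [Blocks.CyclicUpper.conj_irr χ, inv_inv]
          by_cases h3 : (χ : G → ℂ) x = 0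
          · have h4 : c χ = 0 := by
              by_contra h5
              have := hcc χ h5 x hx hx1
              rw [h3] at this
              exact h5 (by exact_mod_cast this.symm)
            rw [h3, h4]; simp
          by_cases h4 : (χ : G → ℂ) y = 0
          · have h4' : d χ = 0 := by
              by_contra h5
              have := hdd χ h5 y hy hy1
              rw [h4] at this
              exact h5 (by exact_mod_cast this.symm)
            rw [h4, h4']; simp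
          obtain ⟨h5, h6⟩ := hcd χ x hx hx1 y hy hy1 h3 h4
          rw [h5, h6]
          push_cast
          ring
        rw [Finset.sum_congr rfl fun χ _ => h2 χ, ← Int.cast_sum] at h1
        exact_mod_cast h1
      refine ncard_le_two (t := 1) one_pos huniq hstp hst1 (by rw [hc1, hd1]; simp) ?_ hsum ?_
      · rcases hc3 st hstc with h1 | h1 <;> rcases hd3 st hstW with h2 | h2 <;> rw [h1, h2] <;> norm_num
      · rintro χ ⟨h1, h2, h3, h4⟩
        obtain ⟨h6, h7⟩ := hcong χ h3 h4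
        have hlt : charDegree (χ : G → ℂ) * charDegree (χ : G → ℂ) < Nat.card G := by
          have h8 := SmallSimple.DegreeData.sum_sq (G := G)
          have h9 : ∑ χ' ∈ ({χ, one1 G} : Finset (IrrCharacter G)), charDegree (χ' : G → ℂ) ^ 2 ≤
              ∑ χ' : IrrCharacter G, charDegree (χ' : G → ℂ) ^ 2 :=
            Finset.sum_le_sum_of_subset_of_nonneg (Finset.subset_univ _) fun χ' _ _ => by positivity
          rw [Finset.sum_pair h1, h8] at h9
          have h10 : charDegree ((one1 G : IrrCharacter G) : G → ℂ) = 1 := by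
            unfold charDegree
            rw [one1_apply]
            simp
          rw [h10, one_pow, pow_two] at h9
          omega
        rcases hneg _ (Blocks.CyclicUpper.charDegree_dvd χ.2) hlt (c χ) (d χ) (hc3 χ h3) (hd3 χ h4) h6 h7 with
          h8 | h8 | h8
        · exact absurd h8 (hone1 χ h1)
        · rw [h8]; simp
        · exfalso
          have h9 : ¬ p ∣ Nat.card G / charDegree (χ : G → ℂ) := by
            rw [H143.ChevBlocks.not_dvd_iff χ.2]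
            exact (hp.pow_dvd_iff_le_factorization (Blocks.Knorr.charDegree_ne_zero χ.2)).1 h8
          exact h9 h2
  have hD : ∀ χ : IrrCharacter G, H727.TC.IsMidB p x y χ → D ≤ charDegree (χ : G → ℂ) := by
    intro χ hχ
    obtain ⟨⟨h1, h2, h3, h4⟩, -, -⟩ := hmid χ hχ
    by_contra hlt
    push Not at hlt
    obtain ⟨h6, h7⟩ := hcong χ h3 h4
    rcases hdeg _ (Blocks.CyclicUpper.charDegree_dvd χ.2) (c χ) (d χ) (hc3 χ h3) (hd3 χ h4) h6 h7 hlt with
      h8 | ⟨k, hk, h8⟩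
    · exact hone1 χ h1 h8
    · have := H727.TC.eq_of_pow hp hG h1 h8
      omega
  have hnorm : ∀ χ : IrrCharacter G, H727.TC.IsMidB p x y χ → ‖(χ : G → ℂ) x‖ * ‖(χ : G → ℂ) y‖ ≤ 1 := by
    intro χ hχ
    obtain ⟨⟨h1, h2, h3, h4⟩, h5, h6⟩ := hmid χ hχ
    rw [h5, h6]
    rcases hc3 χ h3 with h7 | h7 <;> rcases hd3 χ h4 with h8 | h8 <;> rw [h7, h8] <;> simp
  obtain ⟨u, v', e⟩ := H727.TC.two_of_midB hp hG hxc hyc hxy hncard hnorm hD hcb g hg
  exact ⟨u, v', e⟩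

end Cfsg.Agent.H357.T6.Asm
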